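import Mathlib
import Cfsg.Agent.H68.FusionCount

set_option autoImplicit false

namespace Cfsg.Agent.H68

open Equiv Equiv.Perm MulAction

/-- A `p`-element is conjugate into any subgroup of index prime to `p`. -/
theorem exists_conj_mem_of_not_dvd_index {G : Type*} [Group G] {p : ℕ} [Fact p.Prime]
    (H : Subgroup G) (hH : ¬ p ∣ H.index) {x : G} {k : ℕ} (hx : x ^ p ^ k = 1) :
    ∃ g : G, g * x * g⁻¹ ∈ H := by
  have hz : IsPGroup p (Subgroup.zpowers x) := isPGroup_zpowers_of_pow_eq_one hx
  obtain ⟨c, hc⟩ := hz.nonempty_fixed_point_of_prime_not_dvd_card (G ⧸ H) hH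
  induction c using QuotientGroup.induction_on with
  | H g =>
    refine ⟨g⁻¹, ?_⟩
    have h1 := hc ⟨x, Subgroup.mem_zpowers x⟩
    have h2 : ((x * g : G) : G ⧸ H) = (g : G ⧸ H) := h1
    rw [QuotientGroup.eq] at h2
    have h3 := H.inv_mem h2
    have e : ((x * g)⁻¹ * g)⁻¹ = g⁻¹ * x * g⁻¹⁻¹ := by group
    rwa [e] at h3

/-- A subgroup of a finite symmetric group of index prime to `p` contains a `p`-cycle. -/
theorem exists_cycle_mem {α : Type*} [Fintype α] [DecidableEq α] {p : ℕ} [Fact p.Prime]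
    (H : Subgroup (Perm α)) (hH : ¬ p ∣ H.index) (hp : p ≤ Fintype.card α) :
    ∃ g ∈ H, g.IsCycle ∧ g.support.card = p := by
  obtain ⟨g₀, hg₀⟩ := (Equiv.Perm.exists_with_cycleType_iff α (m := {p})).mpr
    ⟨by simpa using hp, by
      intro a ha
      rw [Multiset.mem_singleton] at ha
      rw [ha]
      exact (Fact.out : p.Prime).two_le⟩
  have ho : orderOf g₀ = p := by
    rw [← lcm_cycleType, hg₀]
    simp
  obtain ⟨x, hx⟩ := exists_conj_mem_of_not_dvd_index H hH (x := g₀) (k := 1)
    (by rw [pow_one, ← ho]; exact pow_orderOf_eq_one g₀)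
  refine ⟨x * g₀ * x⁻¹, hx, ?_, ?_⟩
  · rw [← card_cycleType_eq_one, cycleType_conj, hg₀]
    simp
  · rw [← sum_cycleType, cycleType_conj, hg₀]
    simp

/-- A subgroup of `S_q` (`q` prime) whose index is prime to `q` and to a smaller prime `p` has
even order (by Jordan's theorem it is 2-transitive). -/
theorem two_dvd_card_of_cycles {q p : ℕ} [Fact q.Prime] [Fact p.Prime] (hpq : p < q)
    (H : Subgroup (Perm (Fin q))) (hq : ¬ q ∣ H.index) (hp : ¬ p ∣ H.index) :
    2 ∣ Nat.card H := by
  have hq2 : 2 ≤ q := (Fact.out : q.Prime).two_le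
  have hp2 : 2 ≤ p := (Fact.out : p.Prime).two_le
  obtain ⟨c, hcH, hc, hcs⟩ := exists_cycle_mem (p := q) H hq (by simp)
  obtain ⟨g, hgH, hg, hgs⟩ := exists_cycle_mem (p := p) H hp (by simp; omega)
  have hcsupp : c.support = Finset.univ := Finset.eq_univ_of_card _ (by simpa using hcs)
  have htrans : IsPretransitive ↥H (Fin q) := by
    refine ⟨fun a b => ?_⟩
    obtain ⟨i, hi⟩ := hc.exists_zpow_eq (x := a) (y := b)
      (by rw [← mem_support, hcsupp]; exact Finset.mem_univ _)
      (by rw [← mem_support, hcsupp]; exact Finset.mem_univ _)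
    exact ⟨⟨c ^ i, H.zpow_mem hcH i⟩, hi⟩
  have hprim : IsPreprimitive ↥H (Fin q) :=
    IsPreprimitive.of_prime_card (by simpa using (Fact.out : q.Prime))
  have h2 : IsMultiplyPretransitive ↥H (Fin q) 2 := by
    apply hprim.is_two_pretransitive (s := ((g.support : Set (Fin q))ᶜ)) (n := q - p - 1) ?_ ?_
      (isPretransitive_of_isCycle_mem hg hgH)
    · apply Nat.add_left_cancel (n := (g.support : Set (Fin q)).ncard)
      rw [Set.ncard_add_ncard_compl, Set.ncard_coe_finset, hgs]
      simp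
      omega
    · simp
      omega
  rw [is_two_pretransitive_iff] at h2
  have h01 : (⟨0, by omega⟩ : Fin q) ≠ ⟨1, by omega⟩ := by
    intro h
    simp [Fin.ext_iff] at h
  obtain ⟨h, h1, h2'⟩ := h2 h01 h01.symm
  have hdvd : 2 ∣ orderOf h := by
    by_contra hodd
    obtain ⟨m, hm⟩ := Nat.odd_iff.mpr (Nat.two_dvd_ne_zero.mp hodd)
    have hsq : ∀ k : ℕ, (h ^ (2 * k)) • (⟨0, by omega⟩ : Fin q) = ⟨0, by omega⟩ := by
      intro k
      induction k with
      | zero => simp
      | succ k ih =>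
        rw [show 2 * (k + 1) = 2 * k + 1 + 1 by ring, pow_succ, pow_succ, mul_smul, mul_smul,
          h1, h2', ih]
    have h3 : (h ^ (2 * m + 1)) • (⟨0, by omega⟩ : Fin q) = ⟨1, by omega⟩ := by
      rw [pow_succ', mul_smul, hsq, h1]
    rw [← hm, pow_orderOf_eq_one, one_smul] at h3
    exact h01 h3
  exact hdvd.trans (orderOf_dvd_natCard h)

/-- A subgroup of `S_q` (`q` prime) of odd index prime to `q` is everything. -/
theorem eq_top_of_cycle_swap {q : ℕ} [Fact q.Prime] (H : Subgroup (Perm (Fin q)))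
    (hq : ¬ q ∣ H.index) (h2 : ¬ 2 ∣ H.index) : H = ⊤ := by
  have hq2 : 2 ≤ q := (Fact.out : q.Prime).two_le
  obtain ⟨c, hcH, hc, hcs⟩ := exists_cycle_mem (p := q) H hq (by simp)
  obtain ⟨t, htH, ht, hts⟩ := exists_cycle_mem (p := 2) H h2 (by simpa using hq2)
  have hcsupp : c.support = Finset.univ := Finset.eq_univ_of_card _ (by simpa using hcs)
  have hcl := closure_prime_cycle_swap (by simpa using (Fact.out : q.Prime)) hc hcsupp
    (card_support_eq_two.mp hts)
  rw [eq_top_iff, ← hcl, Subgroup.closure_le]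
  intro x hx
  rcases hx with rfl | hx
  · exact hcH
  · rw [Set.mem_singleton_iff] at hx
    rw [hx]
    exact htH

/-- A subgroup of `S_n`, `n ≥ 5`, has index at most `2` or at least `n`. -/
theorem index_le_two_or_le_index {n : ℕ} (hn : 5 ≤ n) (H : Subgroup (Perm (Fin n))) :
    H.index ≤ 2 ∨ n ≤ H.index := by
  have hidx : H.index ≠ 0 := Subgroup.index_ne_zero_of_finite
  by_cases hN : H.normalCore = ⊥
  · right
    by_contra hlt
    push Not at hlt
    have hinj : Function.Injective (MulAction.toPermHom (Perm (Fin n)) (Perm (Fin n) ⧸ H)) := by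
      rw [← MonoidHom.ker_eq_bot_iff, ← Subgroup.normalCore_eq_ker]
      exact hN
    have hle := Nat.card_le_card_of_injective _ hinj
    rw [Nat.card_perm, Nat.card_perm, Nat.card_fin] at hle
    have hlt' : (Nat.card (Perm (Fin n) ⧸ H)).factorial < n.factorial :=
      (Nat.factorial_lt (Nat.pos_of_ne_zero hidx)).mpr hlt
    omega
  · left
    have hnt : Nontrivial ↥H.normalCore := (Subgroup.nontrivial_iff_ne_bot _).mpr hN
    have hle : alternatingGroup (Fin n) ≤ H :=
      (alternatingGroup_le_of_normal (by simpa using hn) hnt).trans H.normalCore_le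
    have hdvd := Subgroup.index_dvd_of_le hle
    have : Nontrivial (Fin n) := Fin.nontrivial_iff_two_le.mpr (by omega)
    rw [alternatingGroup.index_eq_two] at hdvd
    exact Nat.le_of_dvd (by norm_num) hdvd

end Cfsg.Agent.H68
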