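import Mathlib
import Cfsg.Agent.H68.PClasses

set_option autoImplicit false

/-!
# Counting conjugacy classes of `π`-elements (helper68)

* `OClass Q G`: conjugacy classes of `G` whose elements have order satisfying `Q`.
* `card_oclass_le_mul`: the fibration of `Q`-classes over `Q₁`-classes.
* `card_piclass_le`: `k_σ(H) ≤ |H|_σ`.
* `card_piclass_le_mul`: `k_π(G) ≤ k_r(G) |G|_{π ∖ r}` for `r ∈ π`.
-/

namespace Cfsg.Agent.H68

universe u

/-- Conjugacy classes all of whose elements have order satisfying `Q`. -/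
abbrev OClass (Q : ℕ → Prop) (G : Type*) [Group G] : Type _ :=
  {c : ConjClasses G // ∀ x ∈ c.carrier, Q (orderOf x)}

/-- `n` is a `σ`-number. -/
abbrev PiPred (σ : Finset ℕ) (n : ℕ) : Prop := ∀ r : ℕ, r.Prime → r ∣ n → r ∈ σ

theorem oclass_mk {G : Type*} [Group G] {Q : ℕ → Prop} {x : G} (hx : Q (orderOf x)) :
    ∀ y ∈ (ConjClasses.mk x).carrier, Q (orderOf y) := by
  intro y hy
  rw [ConjClasses.mem_carrier_iff_mk_eq, ConjClasses.mk_eq_mk_iff_isConj] at hy
  obtain ⟨g, hg⟩ := isConj_iff.mp hy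
  have h1 : orderOf y = orderOf x := by
    rw [← hg]; exact (MulEquiv.orderOf_eq (MulAut.conj g) y).symm
  rw [h1]; exact hx

/-- Decomposition of an element along a coprime factorization of (a multiple of) its order. -/
theorem exists_decomp {G : Type*} [Group G] (x : G) {A B : ℕ} (hAB : Nat.Coprime A B)
    (hx : x ^ (A * B) = 1) :
    ∃ y z : G, y ∈ Subgroup.zpowers x ∧ z ∈ Subgroup.zpowers x ∧ x = y * z ∧ y ^ A = 1 ∧
      z ^ B = 1 := by
  have h := Nat.gcd_eq_gcd_ab A B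
  rw [hAB.gcd_eq_one] at h
  refine ⟨x ^ ((B : ℤ) * Nat.gcdB A B), x ^ ((A : ℤ) * Nat.gcdA A B), ⟨_, rfl⟩, ⟨_, rfl⟩, ?_, ?_, ?_⟩
  · rw [← zpow_add, add_comm, ← h]; simp
  · rw [← zpow_natCast, ← zpow_mul,
      show (B : ℤ) * Nat.gcdB A B * (A : ℤ) = ((A * B : ℕ) : ℤ) * Nat.gcdB A B by push_cast; ring,
      zpow_mul, zpow_natCast, hx, one_zpow]
  · rw [← zpow_natCast, ← zpow_mul,
      show (A : ℤ) * Nat.gcdA A B * (B : ℤ) = ((A * B : ℕ) : ℤ) * Nat.gcdA A B by push_cast; ring,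
      zpow_mul, zpow_natCast, hx, one_zpow]

/-- The relation used to fibre `Q`-classes over `Q₁`-classes. -/
def FibRel {G : Type u} [Group G] (Q Q₁ Q₂ : ℕ → Prop) (rep : OClass Q₁ G → G)
    (c : OClass Q G)
    (t : Σ c₁ : OClass Q₁ G, OClass Q₂ ↥(Subgroup.centralizer ({rep c₁} : Set G))) : Prop :=
  ∃ v : ↥(Subgroup.centralizer ({rep t.1} : Set G)),
    ConjClasses.mk v = t.2.1 ∧ ConjClasses.mk (rep t.1 * (v : G)) = c.1

/-- If every `Q`-element is a product of commuting powers `y z` with `y` a `Q₁`-element and `z` a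
`Q₂`-element, and the centralizer of every `Q₁`-element has at most `B` classes of `Q₂`-elements,
then there are at most `k_{Q₁}(G) B` classes of `Q`-elements. -/
theorem card_oclass_le_mul {G : Type u} [Group G] [Finite G] (Q Q₁ Q₂ : ℕ → Prop)
    (hdec : ∀ x : G, Q (orderOf x) → ∃ y z : G, y ∈ Subgroup.zpowers x ∧
      z ∈ Subgroup.zpowers x ∧ x = y * z ∧ Q₁ (orderOf y) ∧ Q₂ (orderOf z))
    (B : ℕ) (hB : ∀ u : G, Q₁ (orderOf u) →
      Nat.card (OClass Q₂ ↥(Subgroup.centralizer ({u} : Set G))) ≤ B) :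
    Nat.card (OClass Q G) ≤ Nat.card (OClass Q₁ G) * B := by
  classical
  have hrep : ∀ c : OClass Q₁ G, ∃ u : G, ConjClasses.mk u = c.1 :=
    fun c => ConjClasses.exists_rep c.1
  choose rep hrep using hrep
  have hrepQ : ∀ c : OClass Q₁ G, Q₁ (orderOf (rep c)) := fun c =>
    c.2 (rep c) (by rw [ConjClasses.mem_carrier_iff_mk_eq]; exact hrep c)
  have hex : ∀ c : OClass Q G, ∃ t, FibRel Q Q₁ Q₂ rep c t := by
    intro c
    obtain ⟨x, hx⟩ := ConjClasses.exists_rep c.1
    have hxQ : Q (orderOf x) := c.2 x (by rw [ConjClasses.mem_carrier_iff_mk_eq]; exact hx)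
    obtain ⟨y, z, hy, hz, hxyz, hyQ, hzQ⟩ := hdec x hxQ
    set c₁ : OClass Q₁ G := ⟨ConjClasses.mk y, oclass_mk hyQ⟩ with hc₁
    have h1 : IsConj y (rep c₁) := by
      rw [← ConjClasses.mk_eq_mk_iff_isConj]; exact (hrep c₁).symm
    obtain ⟨g, hg⟩ := isConj_iff.mp h1
    have hyz : y * z = z * y := by
      obtain ⟨i, rfl⟩ := Subgroup.mem_zpowers_iff.mp hy
      obtain ⟨j, rfl⟩ := Subgroup.mem_zpowers_iff.mp hz
      rw [← zpow_add, ← zpow_add, add_comm]
    have hv : g * z * g⁻¹ ∈ Subgroup.centralizer ({rep c₁} : Set G) := by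
      rw [Subgroup.mem_centralizer_iff]
      intro m hm
      rw [Set.mem_singleton_iff] at hm
      rw [hm, ← hg]
      calc g * y * g⁻¹ * (g * z * g⁻¹) = g * (y * z) * g⁻¹ := by group
        _ = g * (z * y) * g⁻¹ := by rw [hyz]
        _ = g * z * g⁻¹ * (g * y * g⁻¹) := by group
    have hvQ : Q₂ (orderOf (⟨g * z * g⁻¹, hv⟩ : ↥(Subgroup.centralizer ({rep c₁} : Set G)))) := by
      rw [Subgroup.orderOf_mk]
      have h2 : orderOf (g * z * g⁻¹) = orderOf z := MulEquiv.orderOf_eq (MulAut.conj g) z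
      rw [h2]; exact hzQ
    refine ⟨⟨c₁, ⟨ConjClasses.mk ⟨g * z * g⁻¹, hv⟩, oclass_mk hvQ⟩⟩, ⟨g * z * g⁻¹, hv⟩, rfl, ?_⟩
    show ConjClasses.mk (rep c₁ * (g * z * g⁻¹)) = c.1
    rw [← hx, ConjClasses.mk_eq_mk_iff_isConj, isConj_iff]
    refine ⟨g⁻¹, ?_⟩
    rw [← hg, hxyz]; group
  choose F hF using hex
  have hinj : Function.Injective F := by
    intro c c' hcc
    have h1 := hF c
    have h2 := hF c'
    rw [← hcc] at h2
    obtain ⟨v, hv1, hv2⟩ := h1
    obtain ⟨v', hv1', hv2'⟩ := h2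
    have h3 : IsConj v v' := by
      rw [← ConjClasses.mk_eq_mk_iff_isConj, hv1, hv1']
    obtain ⟨w, hw⟩ := isConj_iff.mp h3
    have hw' : (w : G) * (v : G) * (w : G)⁻¹ = (v' : G) := by
      simpa using congrArg Subtype.val hw
    have hwc : rep (F c).1 * (w : G) = (w : G) * rep (F c).1 :=
      Subgroup.mem_centralizer_iff.mp w.2 (rep (F c).1) rfl
    apply Subtype.ext
    rw [← hv2, ← hv2', ConjClasses.mk_eq_mk_iff_isConj, isConj_iff]
    refine ⟨(w : G), ?_⟩
    rw [← hw']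
    calc (w : G) * (rep (F c).1 * (v : G)) * (w : G)⁻¹
        = ((w : G) * rep (F c).1) * (v : G) * (w : G)⁻¹ := by group
      _ = (rep (F c).1 * (w : G)) * (v : G) * (w : G)⁻¹ := by rw [hwc]
      _ = rep (F c).1 * ((w : G) * (v : G) * (w : G)⁻¹) := by group
  have h1 : Nat.card (OClass Q G) ≤
      Nat.card (Σ c₁ : OClass Q₁ G, OClass Q₂ ↥(Subgroup.centralizer ({rep c₁} : Set G))) :=
    Nat.card_le_card_of_injective F hinj
  have : Fintype (OClass Q₁ G) := Fintype.ofFinite _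
  rw [Nat.card_sigma] at h1
  calc Nat.card (OClass Q G)
      ≤ ∑ c : OClass Q₁ G, Nat.card (OClass Q₂ ↥(Subgroup.centralizer ({rep c} : Set G))) := h1
    _ ≤ ∑ _c : OClass Q₁ G, B := Finset.sum_le_sum (fun c _ => hB (rep c) (hrepQ c))
    _ = Nat.card (OClass Q₁ G) * B := by
        rw [Finset.sum_const, Finset.card_univ, smul_eq_mul, Nat.card_eq_fintype_card]

/-- `k_{σ' ∪ {r}}(H) ≤ k_r(H) |H|_{σ'}`, given the bound `k_{σ'} ≤ |·|_{σ'}` for all groups. -/
theorem card_piclass_insert_le {H : Type u} [Group H] [Finite H] (r : ℕ) [Fact r.Prime]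
    (σ' : Finset ℕ) (_hr : r ∉ σ') (hσ' : ∀ q ∈ σ', q.Prime)
    (ih : ∀ (K : Type u) [Group K] [Finite K], Nat.card (OClass (PiPred σ') K) ≤
      σ'.prod (fun q => q ^ (Nat.card K).factorization q)) :
    Nat.card (OClass (PiPred (insert r σ')) H) ≤
      Nat.card (PClass r H) * σ'.prod (fun q => q ^ (Nat.card H).factorization q) := by
  have hrp : r.Prime := Fact.out
  refine card_oclass_le_mul (PiPred (insert r σ')) (fun n => ∃ k : ℕ, n = r ^ k) (PiPred σ') ?_
    _ ?_
  · intro x hx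
    obtain ⟨e, m, hrm, hn⟩ := Nat.exists_eq_pow_mul_and_not_dvd (orderOf_pos x).ne' r hrp.ne_one
    have hcop : Nat.Coprime (r ^ e) m :=
      Nat.Coprime.pow_left e ((Nat.Prime.coprime_iff_not_dvd hrp).mpr hrm)
    have hx1 : x ^ (r ^ e * m) = 1 := by rw [← hn]; exact pow_orderOf_eq_one x
    obtain ⟨y, z, hy, hz, hxyz, hyA, hzB⟩ := exists_decomp x hcop hx1
    refine ⟨y, z, hy, hz, hxyz, ?_, ?_⟩
    · obtain ⟨k, -, hk⟩ := (Nat.dvd_prime_pow hrp).mp (orderOf_dvd_of_pow_eq_one hyA)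
      exact ⟨k, hk⟩
    · intro q hq hqd
      have hqm : q ∣ m := hqd.trans (orderOf_dvd_of_pow_eq_one hzB)
      have hqn : q ∣ orderOf x := by rw [hn]; exact hqm.mul_left _
      rcases Finset.mem_insert.mp (hx q hq hqn) with h | h
      · exact absurd (h ▸ hqm) hrm
      · exact h
  · intro u _
    refine le_trans (ih ↥(Subgroup.centralizer ({u} : Set H))) ?_
    apply Finset.prod_le_prod (fun q _ => Nat.zero_le _)
    intro q hq
    apply Nat.pow_le_pow_right (hσ' q hq).pos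
    exact (Nat.factorization_le_iff_dvd Nat.card_pos.ne' Nat.card_pos.ne').mpr
      (Subgroup.card_subgroup_dvd_card _) q

/-- `k_σ(H) ≤ |H|_σ`. -/
theorem card_piclass_le (σ : Finset ℕ) (hσ : ∀ r ∈ σ, r.Prime) :
    ∀ (H : Type u) [Group H] [Finite H], Nat.card (OClass (PiPred σ) H) ≤
      σ.prod (fun r => r ^ (Nat.card H).factorization r) := by
  induction σ using Finset.induction_on with
  | empty =>
    intro H _ _
    rw [Finset.prod_empty, Finite.card_le_one_iff_subsingleton]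
    have key : ∀ c : ConjClasses H, (∀ x ∈ c.carrier, PiPred ∅ (orderOf x)) →
        c = ConjClasses.mk 1 := by
      intro c hc
      obtain ⟨x, rfl⟩ := ConjClasses.exists_rep c
      have h1 := hc x ConjClasses.mem_carrier_mk
      have h2 : orderOf x = 1 := by
        by_contra hne
        obtain ⟨q, hq, hqd⟩ := Nat.exists_prime_and_dvd hne
        exact absurd (h1 q hq hqd) (Finset.notMem_empty q)
      rw [orderOf_eq_one_iff.mp h2]
    constructor
    rintro ⟨a, ha⟩ ⟨b, hb⟩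
    apply Subtype.ext
    show a = b
    rw [key a ha, key b hb]
  | insert r σ' hr ih =>
    intro H _ _
    have hrp : r.Prime := hσ r (Finset.mem_insert_self r σ')
    have hσ' : ∀ q ∈ σ', q.Prime := fun q hq => hσ q (Finset.mem_insert_of_mem hq)
    have : Fact r.Prime := ⟨hrp⟩
    have h1 := card_piclass_insert_le (H := H) r σ' hr hσ' (ih hσ')
    obtain ⟨P⟩ : Nonempty (Sylow r H) := inferInstance
    have h2 : Nat.card (PClass r H) ≤ r ^ (Nat.card H).factorization r := by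
      rw [← Sylow.card_eq_multiplicity P]
      exact le_trans (card_pclass_le_card_conjClasses P)
        (Nat.card_le_card_of_surjective ConjClasses.mk ConjClasses.mk_surjective)
    rw [Finset.prod_insert hr]
    exact le_trans h1 (Nat.mul_le_mul_right _ h2)

/-- `k_π(G) ≤ k_r(G) |G|_{π ∖ r}` for a prime `r ∈ π`. -/
theorem card_piclass_le_mul {G : Type u} [Group G] [Finite G] (π : Finset ℕ)
    (hπ : ∀ r ∈ π, r.Prime) (r : ℕ) (hr : r ∈ π) [Fact r.Prime] :
    Nat.card (OClass (PiPred π) G) ≤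
      Nat.card (PClass r G) * (π.erase r).prod (fun q => q ^ (Nat.card G).factorization q) := by
  have hσ' : ∀ q ∈ π.erase r, q.Prime := fun q hq => hπ q (Finset.mem_of_mem_erase hq)
  have h := card_piclass_insert_le (H := G) r (π.erase r) (Finset.notMem_erase r π) hσ'
    (fun K _ _ => card_piclass_le (π.erase r) hσ' K)
  rwa [Finset.insert_erase hr] at h

end Cfsg.Agent.H68
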