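import Mathlib
import Cfsg.Prelude.Def_OddOrderLocal
import Cfsg.Agent.H68.PiClasses

set_option autoImplicit false

/-!
# Classes of `p`-elements in groups of odd order (helper68)

* `mul_index_mul_card_pclass_le`: Burnside count for a subgroup `M ≤ N_G(P)` acting on a Sylow
  subgroup `P`: `p a k_p(G) ≤ (a + p - 1) |P|`, where `a = |M : C_M(P)|`.
* `normalizer_le_centralizer_of_odd`: in a group of odd order, `|P| < 2 k_p(G)` forces
  `N_G(P) ≤ C_G(P)`.
* `card_pclass_le_card_pclass_of_normal`: `k_p(G) ≤ k_p(K)` for `K ⊴ G` of index prime to `p`.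
* `normal_map_of_coprime`: a normal Hall subgroup of a normal subgroup is normal.
* `exists_normal_complement_abelian_hall`: from normal `r`-complements with abelian quotients for
  all `r ∈ σ` to a normal `σ`-complement and an abelian Hall `σ`-subgroup.
-/

namespace Cfsg.Agent.H68

section

variable {G : Type*} [Group G]

/-- Conjugation action of a subgroup of the normalizer. -/
@[reducible] def subNormalizerAction (H M : Subgroup G)
    (hM : M ≤ Subgroup.normalizer (H : Set G)) : MulAction ↥M ↥H where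
  smul n x := ⟨(n : G) * x * (n : G)⁻¹, (Subgroup.mem_normalizer_iff.mp (hM n.2) x).mp x.2⟩
  one_smul x := Subtype.ext (by
    change ((1 : ↥M) : G) * x * ((1 : ↥M) : G)⁻¹ = x
    simp)
  mul_smul a b x := Subtype.ext (by
    change ((a * b : ↥M) : G) * x * ((a * b : ↥M) : G)⁻¹ =
      (a : G) * ((b : G) * x * (b : G)⁻¹) * (a : G)⁻¹
    simp [mul_assoc])

variable [Finite G] {p : ℕ} [Fact p.Prime]

/-- Burnside count for a subgroup `M` of `N_G(P)`: with `a = |M : C_M(P)|`,
`p a k_p(G) ≤ (a + p - 1) |P|`. -/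
theorem mul_index_mul_card_pclass_le (P : Sylow p G) (M : Subgroup G)
    (hM : M ≤ Subgroup.normalizer ((P : Subgroup G) : Set G)) :
    p * ((Subgroup.centralizer ((P : Subgroup G) : Set G)).subgroupOf M).index *
        Nat.card (PClass p G) ≤
      (((Subgroup.centralizer ((P : Subgroup G) : Set G)).subgroupOf M).index + p - 1) *
        Nat.card ↥(P : Subgroup G) := by
  classical
  have hp : p.Prime := Fact.out
  let act := subNormalizerAction (P : Subgroup G) M hM
  -- surjection from orbits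
  let f : MulAction.orbitRel.Quotient ↥M ↥(P : Subgroup G) → PClass p G := fun c =>
    Quotient.liftOn' c (fun x : ↥(P : Subgroup G) =>
      (⟨ConjClasses.mk (x : G), pclass_of_mem P x.2⟩ : PClass p G)) (by
        intro a b hab
        obtain ⟨n, hn⟩ := hab
        apply Subtype.ext
        show ConjClasses.mk (a : G) = ConjClasses.mk (b : G)
        rw [ConjClasses.mk_eq_mk_iff_isConj, isConj_iff]
        refine ⟨(n : G)⁻¹, ?_⟩
        have hn' : (n : G) * b * (n : G)⁻¹ = a := congrArg Subtype.val hn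
        rw [← hn']; group)
  have hf : Function.Surjective f := by
    rintro ⟨c, hc⟩
    obtain ⟨x, hx, rfl⟩ := exists_mem_of_pclass P c hc
    exact ⟨Quotient.mk'' ⟨x, hx⟩, rfl⟩
  have h1 : Nat.card (PClass p G) ≤ Nat.card (MulAction.orbitRel.Quotient ↥M ↥(P : Subgroup G)) :=
    Nat.card_le_card_of_surjective f hf
  -- Burnside's lemma
  have : Fintype ↥M := Fintype.ofFinite _
  have : ∀ n : ↥M, Fintype (MulAction.fixedBy ↥(P : Subgroup G) n) := fun n => Fintype.ofFinite _
  have : Fintype (MulAction.orbitRel.Quotient ↥M ↥(P : Subgroup G)) := Fintype.ofFinite _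
  have hB := MulAction.sum_card_fixedBy_eq_card_orbits_mul_card_group ↥M ↥(P : Subgroup G)
  rw [← Nat.card_eq_fintype_card, ← Nat.card_eq_fintype_card] at hB
  set Ω := Nat.card (MulAction.orbitRel.Quotient ↥M ↥(P : Subgroup G)) with hΩ
  set C' : Subgroup ↥M := (Subgroup.centralizer ((P : Subgroup G) : Set G)).subgroupOf M with hC'
  -- fixed points
  have hfix : ∀ n : ↥M, p * Fintype.card (MulAction.fixedBy ↥(P : Subgroup G) n) ≤
      Nat.card ↥(P : Subgroup G) +
        if n ∈ C' then (p - 1) * Nat.card ↥(P : Subgroup G) else 0 := by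
    intro n
    by_cases hn : n ∈ C'
    · rw [if_pos hn]
      have h2 : Fintype.card (MulAction.fixedBy ↥(P : Subgroup G) n) ≤
          Nat.card ↥(P : Subgroup G) := by
        rw [← Nat.card_eq_fintype_card]
        exact Nat.card_le_card_of_injective Subtype.val Subtype.val_injective
      have h3 : Nat.card ↥(P : Subgroup G) + (p - 1) * Nat.card ↥(P : Subgroup G) =
          p * Nat.card ↥(P : Subgroup G) := by
        obtain ⟨q, rfl⟩ : ∃ q, p = q + 1 := ⟨p - 1, by have := hp.pos; omega⟩
        simp; ring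
      rw [h3]
      exact Nat.mul_le_mul_left p h2
    · rw [if_neg hn, add_zero]
      set D : Subgroup G := (P : Subgroup G) ⊓ Subgroup.centralizer {(n : G)} with hD
      have hDne : D ≠ (P : Subgroup G) := by
        intro hDP
        apply hn
        rw [hC', Subgroup.mem_subgroupOf, Subgroup.mem_centralizer_iff]
        intro x hx
        have hx' : x ∈ D := by rw [hDP]; exact hx
        have := Subgroup.mem_centralizer_iff.mp hx'.2 (n : G) rfl
        exact this.symm
      have h2 := mul_card_le_of_ne P.isPGroup' (inf_le_left : D ≤ (P : Subgroup G)) hDne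
      have h3 : Fintype.card (MulAction.fixedBy ↥(P : Subgroup G) n) ≤ Nat.card D := by
        rw [← Nat.card_eq_fintype_card]
        refine Nat.card_le_card_of_injective
          (fun x => (⟨((x : ↥(P : Subgroup G)) : G), ⟨(x : ↥(P : Subgroup G)).2, ?_⟩⟩ : D)) ?_
        · show ((x : ↥(P : Subgroup G)) : G) ∈ Subgroup.centralizer {(n : G)}
          rw [Subgroup.mem_centralizer_iff]
          intro m hm
          rw [Set.mem_singleton_iff] at hm
          subst hm
          have hx : n • (x : ↥(P : Subgroup G)) = (x : ↥(P : Subgroup G)) := x.2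
          have hx' : (n : G) * ((x : ↥(P : Subgroup G)) : G) * (n : G)⁻¹ =
              ((x : ↥(P : Subgroup G)) : G) := congrArg Subtype.val hx
          calc (n : G) * ((x : ↥(P : Subgroup G)) : G)
              = (n : G) * ((x : ↥(P : Subgroup G)) : G) * (n : G)⁻¹ * (n : G) := by group
            _ = ((x : ↥(P : Subgroup G)) : G) * (n : G) := by rw [hx']
        · intro a b hab
          have := congrArg Subtype.val hab
          exact Subtype.ext (Subtype.ext this)
      calc p * Fintype.card (MulAction.fixedBy ↥(P : Subgroup G) n) ≤ p * Nat.card D :=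
            Nat.mul_le_mul_left p h3
        _ ≤ Nat.card ↥(P : Subgroup G) := h2
  -- sum up
  have hsum : p * (Ω * Nat.card ↥M) ≤
      Nat.card ↥M * Nat.card ↥(P : Subgroup G) +
        Nat.card C' * ((p - 1) * Nat.card ↥(P : Subgroup G)) := by
    rw [← hB, Finset.mul_sum]
    calc ∑ n, p * Fintype.card (MulAction.fixedBy ↥(P : Subgroup G) n)
        ≤ ∑ n : ↥M, (Nat.card ↥(P : Subgroup G) +
            if n ∈ C' then (p - 1) * Nat.card ↥(P : Subgroup G) else 0) :=
          Finset.sum_le_sum (fun n _ => hfix n)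
      _ = _ := by
          rw [Finset.sum_add_distrib, Finset.sum_const, Finset.card_univ, smul_eq_mul,
            ← Finset.sum_filter, Finset.sum_const, smul_eq_mul, ← Fintype.card_subtype,
            ← Nat.card_eq_fintype_card, ← Nat.card_eq_fintype_card]
  have hidx : Nat.card ↥M = C'.index * Nat.card C' := by
    rw [mul_comm, Subgroup.card_mul_index]
  set a := C'.index with ha
  set c := Nat.card ↥(P : Subgroup G) with hc
  set C := Nat.card C' with hCdef
  have hCpos : 0 < C := Nat.card_pos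
  obtain ⟨q, rfl⟩ : ∃ q, p = q + 1 := ⟨p - 1, by have := hp.pos; omega⟩
  simp only [Nat.add_sub_cancel] at hsum ⊢
  rw [hidx] at hsum
  have h3 : (q + 1) * a * Ω * C ≤ (a + q) * c * C := by
    calc (q + 1) * a * Ω * C = (q + 1) * (Ω * (a * C)) := by ring
      _ ≤ a * C * c + C * (q * c) := hsum
      _ = (a + q) * c * C := by ring
  have h5 : (q + 1) * a * Ω ≤ (a + q) * c := Nat.le_of_mul_le_mul_right h3 hCpos
  have h6 : a + (q + 1) - 1 = a + q := by omega
  rw [h6]
  calc (q + 1) * a * Nat.card (PClass (q + 1) G) ≤ (q + 1) * a * Ω := Nat.mul_le_mul_left _ h1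
    _ ≤ (a + q) * c := h5

theorem two_mul_le_mul_aux {r a : ℕ} (hr : 3 ≤ r) (ha : 3 ≤ a) (h33 : ¬ (r = 3 ∧ a = 3)) :
    2 * (a + r - 1) ≤ r * a := by
  obtain ⟨r', rfl⟩ : ∃ r', r = r' + 3 := ⟨r - 3, by omega⟩
  obtain ⟨a', rfl⟩ : ∃ a', a = a' + 3 := ⟨a - 3, by omega⟩
  have h1 : 1 ≤ r' + a' := by
    by_contra hcon
    apply h33
    constructor <;> omega
  have h2 : a' + 3 + (r' + 3) - 1 = a' + r' + 5 := by omega
  rw [h2]
  nlinarith [Nat.zero_le (r' * a')]

/-- In a group of odd order, `|P| < 2 k_p(G)` forces `N_G(P) ≤ C_G(P)`. -/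
theorem normalizer_le_centralizer_of_odd (hodd : Odd (Nat.card G)) (P : Sylow p G)
    (h : Nat.card ↥(P : Subgroup G) < 2 * Nat.card (PClass p G)) :
    Subgroup.normalizer ((P : Subgroup G) : Set G) ≤
      Subgroup.centralizer ((P : Subgroup G) : Set G) := by
  classical
  have hp : p.Prime := Fact.out
  by_contra hcon
  -- `p` is odd
  have hp3 : 3 ≤ p := by
    by_contra hlt
    have hp2 : p = 2 := by have := hp.two_le; omega
    subst hp2
    apply hcon
    have h2 : ¬ 2 ∣ Nat.card G := fun hd => (Nat.not_even_iff_odd.mpr hodd) (even_iff_two_dvd.mpr hd)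
    have hcard : Nat.card ↥(P : Subgroup G) = 1 := by
      rw [Sylow.card_eq_multiplicity, Nat.factorization_eq_zero_of_not_dvd h2, pow_zero]
    have hbot : (P : Subgroup G) = ⊥ := Subgroup.eq_bot_of_card_eq _ hcard
    intro x _
    rw [Subgroup.mem_centralizer_iff]
    intro y hy
    rw [SetLike.mem_coe, hbot, Subgroup.mem_bot] at hy
    rw [hy, one_mul, mul_one]
  -- a subgroup `M ≤ N_G(P)` with `a = |M : C_M(P)| ≥ 3` and `(p, a) ≠ (3, 3)`
  obtain ⟨M, hM, ha3, ha33⟩ : ∃ M : Subgroup G, M ≤ Subgroup.normalizer ((P : Subgroup G) : Set G) ∧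
      3 ≤ ((Subgroup.centralizer ((P : Subgroup G) : Set G)).subgroupOf M).index ∧
      ¬ (p = 3 ∧ ((Subgroup.centralizer ((P : Subgroup G) : Set G)).subgroupOf M).index = 3) := by
    by_cases hab : ∀ x ∈ (P : Subgroup G), ∀ y ∈ (P : Subgroup G), x * y = y * x
    · -- abelian case
      refine ⟨Subgroup.normalizer ((P : Subgroup G) : Set G), le_rfl, ?_, ?_⟩
      all_goals
        set N : Subgroup G := Subgroup.normalizer ((P : Subgroup G) : Set G) with hN
        set C' : Subgroup ↥N :=
          (Subgroup.centralizer ((P : Subgroup G) : Set G)).subgroupOf N with hC'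
        have hPC : (P : Subgroup G) ≤ Subgroup.centralizer ((P : Subgroup G) : Set G) :=
          fun x hx => Subgroup.mem_centralizer_iff.mpr (fun y hy => hab y hy x hx)
        have hle : (P : Subgroup G).subgroupOf N ≤ C' := by
          intro x hx
          rw [Subgroup.mem_subgroupOf] at hx
          rw [hC', Subgroup.mem_subgroupOf]
          exact hPC hx
        have hdvd : C'.index ∣ (P : Subgroup G).index :=
          (Subgroup.index_dvd_of_le hle).trans (Subgroup.relIndex_dvd_index_of_le Subgroup.le_normalizer)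
        have hpa : ¬ p ∣ C'.index := fun hd => P.not_dvd_index (hd.trans hdvd)
        have haodd : Odd C'.index :=
          Odd.of_dvd_nat hodd ((Subgroup.index_dvd_card C').trans (Subgroup.card_subgroup_dvd_card N))
        have ha1 : C'.index ≠ 1 := by
          intro h1
          apply hcon
          rw [Subgroup.index_eq_one, hC', Subgroup.subgroupOf_eq_top] at h1
          exact h1
      · obtain ⟨m, hm⟩ := haodd
        omega
      · rintro ⟨h3, ha⟩
        apply hpa
        rw [ha, h3]
    · -- nonabelian case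
      refine ⟨(P : Subgroup G), Subgroup.le_normalizer, ?_, ?_⟩
      all_goals
        set C' : Subgroup ↥(P : Subgroup G) :=
          (Subgroup.centralizer ((P : Subgroup G) : Set G)).subgroupOf (P : Subgroup G) with hC'
        have hCc : C' = Subgroup.center ↥(P : Subgroup G) := by
          ext x
          rw [hC', Subgroup.mem_subgroupOf, Subgroup.mem_centralizer_iff, Subgroup.mem_center_iff]
          constructor
          · intro hx g
            exact Subtype.ext (hx g g.2)
          · intro hx g hg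
            exact congrArg Subtype.val (hx ⟨g, hg⟩)
        obtain ⟨n, hn⟩ := P.isPGroup'.index C'
        have hn0 : n ≠ 0 := by
          rintro rfl
          rw [pow_zero, Subgroup.index_eq_one] at hn
          apply hab
          intro x hx y hy
          have hxc : (⟨x, hx⟩ : ↥(P : Subgroup G)) ∈ C' := by rw [hn]; exact Subgroup.mem_top _
          rw [hC', Subgroup.mem_subgroupOf, Subgroup.mem_centralizer_iff] at hxc
          exact (hxc y hy).symm
        have hn1 : n ≠ 1 := by
          rintro rfl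
          rw [pow_one, hCc] at hn
          have hcyc : IsCyclic (↥(P : Subgroup G) ⧸ Subgroup.center ↥(P : Subgroup G)) :=
            isCyclic_of_prime_card (p := p) hn
          apply hab
          intro x hx y hy
          have hcm := MonoidHom.isMulCommutative_of_isCyclic_of_ker_le_center
            (QuotientGroup.mk' (Subgroup.center ↥(P : Subgroup G)))
            (by rw [QuotientGroup.ker_mk'])
          have := hcm.is_comm.comm (⟨x, hx⟩ : ↥(P : Subgroup G)) ⟨y, hy⟩
          exact congrArg Subtype.val this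
        have h9 : 9 ≤ C'.index := by
          rw [hn]
          calc 9 = 3 ^ 2 := rfl
            _ ≤ p ^ 2 := Nat.pow_le_pow_left hp3 2
            _ ≤ p ^ n := Nat.pow_le_pow_right hp.pos (by omega)
      · omega
      · rintro ⟨_, ha⟩
        omega
  have h1 := mul_index_mul_card_pclass_le P M hM
  set a := ((Subgroup.centralizer ((P : Subgroup G) : Set G)).subgroupOf M).index with ha
  have h2 := two_mul_le_mul_aux hp3 ha3 ha33
  have h3 : p * a * (2 * Nat.card (PClass p G)) ≤ p * a * Nat.card ↥(P : Subgroup G) := by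
    calc p * a * (2 * Nat.card (PClass p G)) = 2 * (p * a * Nat.card (PClass p G)) := by ring
      _ ≤ 2 * ((a + p - 1) * Nat.card ↥(P : Subgroup G)) := Nat.mul_le_mul_left _ h1
      _ = (2 * (a + p - 1)) * Nat.card ↥(P : Subgroup G) := by ring
      _ ≤ p * a * Nat.card ↥(P : Subgroup G) := Nat.mul_le_mul_right _ h2
  have hpos : 0 < p * a := Nat.mul_pos hp.pos (by omega)
  have h4 := Nat.le_of_mul_le_mul_left h3 hpos
  omega

omit [Fact p.Prime] in
/-- `k_p(G) ≤ k_p(K)` for a normal subgroup `K` of index prime to `p`. -/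
theorem card_pclass_le_card_pclass_of_normal (K : Subgroup G) [K.Normal]
    (hK : Nat.Coprime K.index p) :
    Nat.card (PClass p G) ≤ Nat.card (PClass p ↥K) := by
  have hrep : ∀ c : PClass p G, ∃ x : ↥K, ConjClasses.mk (x : G) = c.1 := by
    intro c
    obtain ⟨x, hx⟩ := ConjClasses.exists_rep c.1
    obtain ⟨k, hk⟩ := c.2 x (by rw [ConjClasses.mem_carrier_iff_mk_eq]; exact hx)
    have h1 : x ^ K.index ∈ K := Subgroup.pow_index_mem K x
    have hcop : (K.index).Coprime (orderOf x) := by
      rw [hk]; exact Nat.Coprime.pow_right _ hK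
    obtain ⟨m, hm⟩ := exists_pow_eq_self_of_coprime hcop
    exact ⟨⟨x, by rw [← hm]; exact K.pow_mem h1 m⟩, hx⟩
  choose rep hrep using hrep
  let g : PClass p G → PClass p ↥K := fun c =>
    ⟨ConjClasses.mk (rep c), oclass_mk (Q := fun n => ∃ k : ℕ, n = p ^ k) (by
      obtain ⟨k, hk⟩ := c.2 (rep c : G) (by rw [ConjClasses.mem_carrier_iff_mk_eq]; exact hrep c)
      exact ⟨k, by rw [← hk, Subgroup.orderOf_coe]⟩)⟩
  refine Nat.card_le_card_of_injective g ?_
  intro c c' hcc
  have h1 : ConjClasses.mk (rep c) = ConjClasses.mk (rep c') := congrArg Subtype.val hcc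
  rw [ConjClasses.mk_eq_mk_iff_isConj, isConj_iff] at h1
  obtain ⟨u, hu⟩ := h1
  apply Subtype.ext
  rw [← hrep c, ← hrep c', ConjClasses.mk_eq_mk_iff_isConj, isConj_iff]
  exact ⟨(u : G), by simpa using congrArg Subtype.val hu⟩

omit [Finite G] [Fact p.Prime] in
/-- A normal Hall subgroup of a normal subgroup is normal. -/
theorem normal_map_of_coprime (K : Subgroup G) [K.Normal] (N : Subgroup ↥K) [N.Normal]
    (hcop : Nat.Coprime (Nat.card N) N.index) : (N.map K.subtype).Normal := by
  refine ⟨fun n hn g => ?_⟩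
  obtain ⟨n', hn', rfl⟩ := hn
  have hK : g * (n' : G) * g⁻¹ ∈ K := ‹K.Normal›.conj_mem _ n'.2 g
  have h1 : (⟨g * (n' : G) * g⁻¹, hK⟩ : ↥K) ^ N.index ∈ N := Subgroup.pow_index_mem N _
  have h2 : orderOf (⟨g * (n' : G) * g⁻¹, hK⟩ : ↥K) ∣ Nat.card N := by
    have e1 : orderOf (⟨g * (n' : G) * g⁻¹, hK⟩ : ↥K) = orderOf (n' : G) := by
      rw [Subgroup.orderOf_mk]
      exact (MulEquiv.orderOf_eq (MulAut.conj g) (n' : G))
    rw [e1, Subgroup.orderOf_coe]
    have e2 : orderOf (⟨n', hn'⟩ : ↥N) = orderOf n' := Subgroup.orderOf_mk n' hn'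
    rw [← e2]
    exact orderOf_dvd_natCard _
  have hc : (N.index).Coprime (orderOf (⟨g * (n' : G) * g⁻¹, hK⟩ : ↥K)) :=
    (Nat.Coprime.coprime_dvd_left h2 hcop).symm
  obtain ⟨m, hm⟩ := exists_pow_eq_self_of_coprime hc
  refine ⟨⟨g * (n' : G) * g⁻¹, hK⟩, ?_, rfl⟩
  rw [← hm]
  exact N.pow_mem h1 m

omit [Fact p.Prime] in
/-- From normal `r`-complements with abelian quotients for all `r ∈ σ` to a normal `σ`-complement
and an abelian Hall `σ`-subgroup. -/
theorem exists_normal_complement_abelian_hall (σ : Finset ℕ) (hσ : ∀ r ∈ σ, r.Prime)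
    (key : ∀ r ∈ σ, ∃ K : Subgroup G, K.Normal ∧ ¬ r ∣ Nat.card K ∧ (∃ j : ℕ, K.index = r ^ j) ∧
      ∀ a b : G, a * b * a⁻¹ * b⁻¹ ∈ K) :
    (∃ N : Subgroup G, N.Normal ∧ (∀ r : ℕ, r.Prime → r ∣ Nat.card ↥N → r ∉ σ) ∧
      ∀ r : ℕ, r.Prime → r ∣ N.index → r ∈ σ) ∧
    ∃ H : Subgroup G, Cfsg.IsPiHall (↑σ : Set ℕ) H ∧ IsMulCommutative ↥H := by
  classical
  choose! K hKn hKr hKidx hKcomm using key
  set N : Subgroup G := ⨅ r : σ, K r with hN
  have hNn : N.Normal := Subgroup.normal_iInf_normal (fun r : σ => hKn r r.2)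
  have hNle : ∀ r ∈ σ, N ≤ K r := fun r hr => iInf_le (fun r : σ => K r) ⟨r, hr⟩
  have hN1 : ∀ r : ℕ, r.Prime → r ∣ Nat.card ↥N → r ∉ σ := by
    intro r _ hdvd hr
    exact hKr r hr (hdvd.trans (Subgroup.card_dvd_of_le (hNle r hr)))
  have hN2 : ∀ q : ℕ, q.Prime → q ∣ N.index → q ∈ σ := by
    intro q hq hdvd
    by_contra hqσ
    have : Fact q.Prime := ⟨hq⟩
    obtain ⟨Q⟩ : Nonempty (Sylow q G) := inferInstance
    have hQN : (Q : Subgroup G) ≤ N := by
      intro x hx
      rw [hN, Subgroup.mem_iInf]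
      rintro ⟨r, hr⟩
      show x ∈ K r
      have hrp : r.Prime := hσ r hr
      obtain ⟨j, hj⟩ := hKidx r hr
      have h1 : x ^ r ^ j ∈ K r := by
        have := hKn r hr
        rw [← hj]; exact Subgroup.pow_index_mem (K r) x
      obtain ⟨i, hi⟩ := (IsPGroup.iff_orderOf.mp Q.isPGroup') ⟨x, hx⟩
      rw [Subgroup.orderOf_mk] at hi
      have hqr : q ≠ r := fun h => hqσ (h ▸ hr)
      have hcop : (r ^ j).Coprime (orderOf x) := by
        rw [hi]
        exact Nat.Coprime.pow _ _ ((Nat.coprime_primes hrp hq).mpr (Ne.symm hqr))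
      obtain ⟨m, hm⟩ := exists_pow_eq_self_of_coprime hcop
      rw [← hm]
      exact (K r).pow_mem h1 m
    exact Q.not_dvd_index (hdvd.trans (Subgroup.index_dvd_of_le hQN))
  refine ⟨⟨N, hNn, hN1, hN2⟩, ?_⟩
  have hcop : Nat.Coprime (Nat.card N) N.index :=
    Nat.coprime_of_dvd (fun q hq h1 h2 => hN1 q hq h1 (hN2 q hq h2))
  obtain ⟨H, hH⟩ := Subgroup.exists_right_complement'_of_coprime hcop
  refine ⟨H, ⟨?_, ?_⟩, ?_⟩
  · intro q hq hdvd
    rw [← hH.symm.index_eq_card] at hdvd
    exact Finset.mem_coe.mpr (hN2 q hq hdvd)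
  · intro q hq hqσ hdvd
    rw [hH.index_eq_card] at hdvd
    exact hN1 q hq hdvd (Finset.mem_coe.mp hqσ)
  · refine ⟨⟨fun a b => Subtype.ext ?_⟩⟩
    have h1 : (a : G) * b * (a : G)⁻¹ * (b : G)⁻¹ ∈ N := by
      rw [hN, Subgroup.mem_iInf]
      rintro ⟨r, hr⟩
      exact hKcomm r hr a b
    have h2 : (a : G) * b * (a : G)⁻¹ * (b : G)⁻¹ ∈ H :=
      H.mul_mem (H.mul_mem (H.mul_mem a.2 b.2) (H.inv_mem a.2)) (H.inv_mem b.2)
    have h3 : (a : G) * b * (a : G)⁻¹ * (b : G)⁻¹ = 1 := by
      have := hH.disjoint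
      rw [disjoint_iff, Subgroup.eq_bot_iff_forall] at this
      exact this _ ⟨h1, h2⟩
    show (a : G) * b = b * a
    calc (a : G) * b = ((a : G) * b * (a : G)⁻¹ * (b : G)⁻¹) * (b * a) := by group
      _ = b * a := by rw [h3, one_mul]

/-- A Sylow subgroup with `N_G(P) ≤ C_G(P)` gives a normal `p`-complement with abelian
quotient. -/
theorem exists_complement_of_normalizer_le_centralizer (P : Sylow p G)
    (hNC : Subgroup.normalizer ((P : Subgroup G) : Set G) ≤
      Subgroup.centralizer ((P : Subgroup G) : Set G)) :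
    ∃ K : Subgroup G, K.Normal ∧ ¬ p ∣ Nat.card K ∧ (∃ j : ℕ, K.index = p ^ j) ∧
      ∀ a b : G, a * b * a⁻¹ * b⁻¹ ∈ K := by
  have hc := MonoidHom.ker_transferSylow_isComplement' P hNC
  have hab : IsMulCommutative ↥(P : Subgroup G) :=
    ⟨⟨fun a b => Subtype.ext (hNC (Subgroup.le_normalizer b.2) a a.2)⟩⟩
  refine ⟨(MonoidHom.transferSylow P hNC).ker, inferInstance, ?_, ?_, ?_⟩
  · exact hc.index_eq_card ▸ P.not_dvd_index
  · exact ⟨_, by rw [hc.symm.index_eq_card, Sylow.card_eq_multiplicity]⟩
  · intro a b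
    have e : G ⧸ (MonoidHom.transferSylow P hNC).ker ≃* ↥(P : Subgroup G) :=
      hc.symm.QuotientMulEquiv
    rw [← QuotientGroup.eq_one_iff]
    apply e.injective
    rw [map_one]
    simp only [QuotientGroup.mk_mul, QuotientGroup.mk_inv, map_mul, map_inv]
    have hcomm := hab.is_comm.comm (e a) (e b)
    rw [hcomm]; group

end

end Cfsg.Agent.H68
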