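import Mathlib
import Cfsg.Agent.H68.MinPClosed

set_option autoImplicit false

namespace Cfsg.Agent.H68

/-- **Lifting real elements.** Let `O` be a normal subgroup of `G` of order prime to the prime `q`.
If `G ⧸ O` has an element of order `q` conjugate to its inverse, then so has `G`. -/
theorem exists_real_of_quotient {G : Type*} [Group G] [Finite G] (O : Subgroup G) [O.Normal]
    {q : ℕ} [Fact q.Prime] (hq : ¬ q ∣ Nat.card O) {y : G ⧸ O} (hy : orderOf y = q)
    (hreal : IsConj y y⁻¹) : ∃ c : G, orderOf c = q ∧ IsConj c c⁻¹ := by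
  classical
  have hqp : q.Prime := Fact.out
  obtain ⟨gbar, hg⟩ := isConj_iff.mp hreal
  obtain ⟨g, rfl⟩ := QuotientGroup.mk'_surjective O gbar
  obtain ⟨x, rfl⟩ := QuotientGroup.mk'_surjective O y
  set π := QuotientGroup.mk' O with hπ
  have hker : ∀ z : G, π z = 1 → z ∈ O := fun z hz => (QuotientGroup.eq_one_iff z).mp hz
  set s := Nat.card O with hs
  set c := x ^ s with hc
  have hcq : c ^ q = 1 := by
    have h1 : π (x ^ q) = 1 := by rw [map_pow, ← hy, pow_orderOf_eq_one]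
    have h2 : x ^ q ∈ O := hker _ h1
    have h3 : (x ^ q) ^ s = 1 := by
      have h4 : (⟨x ^ q, h2⟩ : O) ^ Nat.card O = 1 := pow_card_eq_one'
      have h5 := congrArg Subtype.val h4
      rw [Subgroup.coe_pow, Subgroup.coe_one] at h5
      exact h5
    rw [hc, ← pow_mul, mul_comm, pow_mul]; exact h3
  have hπc : π c ≠ 1 := by
    rw [hc, map_pow]
    intro h
    have : orderOf (π x) ∣ s := orderOf_dvd_of_pow_eq_one h
    rw [hy] at this; exact hq this
  have hc1 : c ≠ 1 := fun h => hπc (by rw [h, map_one])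
  have hcord : orderOf c = q := orderOf_eq_prime hcq hc1
  have hinv : π g * π c * (π g)⁻¹ = (π c)⁻¹ := by
    rw [hc, map_pow, ← conj_pow, hg, inv_pow]
  -- the subgroup `H`
  set H : Subgroup G := (Subgroup.zpowers (π c)).comap π with hH
  have hcH : c ∈ H := Subgroup.mem_zpowers (π c)
  set d := g * c * g⁻¹ with hd
  have hπd : π d = (π c)⁻¹ := by rw [hd, map_mul, map_mul, map_inv, hinv]
  have hdH : d ∈ H := by
    show π d ∈ Subgroup.zpowers (π c)
    rw [hπd]
    exact Subgroup.inv_mem _ (Subgroup.mem_zpowers _)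
  have hzp : ∀ w : H, w ^ q = 1 → IsPGroup q (Subgroup.zpowers w) := by
    intro w hw
    apply IsPGroup.of_card (n := if w = 1 then 0 else 1)
    rw [Nat.card_zpowers]
    by_cases h1 : w = 1
    · simp [h1]
    · simp only [h1, if_false, pow_one]
      exact orderOf_eq_prime hw h1
  obtain ⟨S1, hS1⟩ := (hzp ⟨c, hcH⟩ (Subtype.ext (by simpa using hcq))).exists_le_sylow
  have hdq : d ^ q = 1 := by rw [hd, conj_pow, hcq, mul_one, mul_inv_cancel]
  obtain ⟨S2, hS2⟩ := (hzp ⟨d, hdH⟩ (Subtype.ext (by simpa using hdq))).exists_le_sylow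
  obtain ⟨h, hh⟩ := MulAction.exists_smul_eq H S1 S2
  have hd' : (⟨d, hdH⟩ : H) ∈ ((h • S1 : Sylow q H) : Subgroup H) := by
    rw [hh]; exact hS2 (Subgroup.mem_zpowers _)
  rw [Sylow.coe_subgroup_smul, Subgroup.mem_smul_pointwise_iff_exists] at hd'
  obtain ⟨v, hv, hvd⟩ := hd'
  have hvd' : (h : G) * (v : G) * (h : G)⁻¹ = d := by
    have := congrArg Subtype.val hvd
    simpa using this
  have hv_eq : (v : G) = (h : G)⁻¹ * d * (h : G) := by rw [← hvd']; group
  -- `π h` commutes with `π c`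
  have hπh : π (h : G) ∈ Subgroup.zpowers (π c) := h.2
  obtain ⟨k, hk⟩ := Subgroup.mem_zpowers_iff.mp hπh
  have hπv : π (v : G) = (π c)⁻¹ := by
    rw [hv_eq, map_mul, map_mul, map_inv, hπd, ← hk]
    rw [← zpow_neg, ← zpow_neg_one, ← zpow_add, ← zpow_add]
    congr 1
    ring
  -- `v * c` is a `q`-element of `O`
  have hvc : v * ⟨c, hcH⟩ ∈ (S1 : Subgroup H) :=
    (S1 : Subgroup H).mul_mem hv (hS1 (Subgroup.mem_zpowers _))
  obtain ⟨j, hj⟩ := S1.isPGroup' ⟨_, hvc⟩
  have hj' : ((v : G) * c) ^ q ^ j = 1 := by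
    have := congrArg (fun w : S1 => ((w : H) : G)) hj
    simpa using this
  have hvcO : (v : G) * c ∈ O := hker _ (by rw [map_mul, hπv, inv_mul_cancel])
  have hvc1 : (v : G) * c = 1 := eq_one_of_pow_prime_pow_eq_one hq hvcO hj'
  have hvinv : (v : G) = c⁻¹ := eq_inv_of_mul_eq_one_left hvc1
  refine ⟨c, hcord, isConj_iff.mpr ⟨(h : G)⁻¹ * g, ?_⟩⟩
  rw [← hvinv, hv_eq, hd]
  group

end Cfsg.Agent.H68
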